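import Cfsg.Agent.Lib.AltModule.P2.M2.Def

/-!
Checks for piece 3 of the certificate.
-/

namespace Cfsg.Agent.AltMod.P2.M2

theorem fix3_1 : mdl.fixOk 2 ((subs.getD 20 ([], [])).1) v3 k3 0x100000000000100000000000000010000000100010001000100000001000000010001000100000000000100000001000100010000000100010000000100000001000000010001000100010001000100010001000000010000000100000000000100010000000000010000000100010000000000010000000000000000000100010001000000010000000100010001000100000001000100010001000100010000000000010001000100000001000000010000000100000000000100010001 = true := by
  decide +kernel

theorem fix3_2 : mdl.fixOk 2 ((subs.getD 20 ([], [])).2) v3 k3 0x10000000000010000000000010001000100010001000100000000000100000000000000000001000100000000000100010001000100000000000000000000000000000000000000000000000000010000000000010001000100000000000000010001000000010000000100000000000100010000000100010001000000010000000100000001000000010000000000000001000000010000000000000000000100010001000100010001000000000001000100010001 = true := by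
  decide +kernel

theorem spin3_0 : mdl.spinOk 2 v3 e3 0 14 = true := by decide +kernel

theorem spin3_len : e3.length = 14 := by decide +kernel

theorem spin3 : ∀ i < (e3.length + 49) / 50,
    mdl.spinOk 2 v3 e3 (50 * i) (min 50 (e3.length - 50 * i)) = true := by
  rw [spin3_len]
  intro i hi
  interval_cases i
  · exact spin3_0

end Cfsg.Agent.AltMod.P2.M2
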